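import Cfsg.Agent.H307.QE.Defs
import Cfsg.Agent.H967.K4.Crit
import Cfsg.Agent.H969.TT.TopAbs
import Cfsg.Agent.H687.FourK.Node
import Cfsg.Agent.Nodes.RGDTypeA
import Cfsg.Agent.H307.QE.Engine
import Cfsg.Agent.H42.K547.EvenDefs
import Cfsg.Agent.H742.TwoC
import Cfsg.Agent.H612.Sym
import Cfsg.Agent.S0249

/-!
# S4547, `q = 2`: the groups `SL_n(2)`, `n ≥ 4`, with a graph automorphism (task QE9, helper839)

* `cusp_fix` : root groups of order two, orthogonal nodes: the cuspidal characters are invariant;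
* `perm_A`, `not_assoc_orth`, `gInv3_rev`, `psl_swap_two`, `gInv3_two`, `psl42`
-/

set_option autoImplicit false
set_option linter.unusedSectionVars false
set_option linter.unusedVariables false

open scoped ComplexConjugate
open Cfsg

namespace Cfsg.Agent.H839.K547

open Cfsg.Agent.Characters Cfsg.Agent.H601.K4 Cfsg.Agent.H967.K4 Cfsg.Agent.H821.K547 Cfsg.Agent.H307.QE
open CoxeterSystem Cfsg.Agent.ChevalleyStructure.CoxeterGeom Cfsg.Agent.Tits.Roots Cfsg.Agent.Tits.Core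
  Cfsg.Agent.Tits.Exchange Cfsg.Agent.Nodes.Reps Cfsg.Agent.Nodes.BNOf Cfsg.Agent.Nodes.StabComb
  Cfsg.Agent.Nodes.Bruhat Cfsg.Agent.Nodes.OppDec Cfsg.Agent.Nodes.LeviDec Cfsg.Agent.H53.HC
  Cfsg.Agent.H246.Dl Cfsg.Agent.KFacts.RgdAut Cfsg.Agent.KFacts.RgdDiag
open Cfsg.Agent.LieRecognition.BNCox (cA cA_apply)

universe u

section rgd

variable {I W : Type*} {Y : Type u} [Fintype I] [DecidableEq I] [Group W] [Group Y] {M : CoxeterMatrix I}
  {cs : CoxeterSystem M W} {A : I → I → ℤ} {h : IsCartan M A} {T : Subgroup Y} {n : I → Y}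
  {X : (I → ℤ) → Subgroup Y}

/-- the root groups `X (±α_i)` have order two -/
structure Two (X : (I → ℤ) → Subgroup Y) : Prop where
  pos : ∀ i, ∀ u ∈ X (sr i), ∀ v ∈ X (sr i), u ≠ 1 → v ≠ 1 → u = v
  neg : ∀ i, ∀ u ∈ X (-sr i), ∀ v ∈ X (-sr i), u ≠ 1 → v ≠ 1 → u = v

/-- the group generated by `X (±α_i)`, `i ∈ K` -/
def CK (X : (I → ℤ) → Subgroup Y) (K : Set I) : Subgroup Y :=
  Subgroup.closure {s | ∃ i ∈ K, s ∈ X (sr i) ∨ s ∈ X (-sr i)}

theorem MJ_single_le_CK {K : Set I} {i : I} (hi : i ∈ K) : MJ cs h X {i} ≤ CK X K := by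
  rw [Cfsg.Agent.H619.Gow.MJ_single]
  exact sup_le (fun s hs => Subgroup.subset_closure ⟨i, hi, Or.inl hs⟩)
    (fun s hs => Subgroup.subset_closure ⟨i, hi, Or.inr hs⟩)

theorem MJ_le_CK [Finite W] (R : RGD cs h 2 T n X) (K : Set I) : MJ cs h X K ≤ CK X K := by
  have hw : ∀ w ∈ WJ cs K, ∃ g ∈ CK X K, Rp cs R.nsys w g := by
    intro w hw
    unfold WJ at hw
    induction hw using Subgroup.closure_induction with
    | mem w hw =>
      obtain ⟨i, hi, rfl⟩ := hw
      obtain ⟨t, -, h1, h2⟩ := H687.FourK.exists_rp_MJ R i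
      exact ⟨_, MJ_single_le_CK hi h1, h2⟩
    | one => exact ⟨1, one_mem _, rp_one⟩
    | mul a b _ _ iha ihb =>
      obtain ⟨g, hg, hg'⟩ := iha
      obtain ⟨k, hk, hk'⟩ := ihb
      exact ⟨g * k, mul_mem hg hk, hg'.mul hk'⟩
    | inv a _ iha =>
      obtain ⟨g, hg, hg'⟩ := iha
      exact ⟨g⁻¹, inv_mem hg, hg'.inv⟩
  refine RGD.Sup_le fun x hx => ?_
  obtain ⟨w, hwK, j, hj, rfl⟩ := exists_of_mem_RootsJ hx
  obtain ⟨g, hg, hgw⟩ := hw w hwK
  intro z hz
  have h1 : g⁻¹ * z * g ∈ X (sr j) := by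
    have := R.conj_mem' hgw ((isRoot_sr cs h j).act w) hz
    rwa [rep_inv_apply] at this
  have h2 : g⁻¹ * z * g ∈ CK X K := Subgroup.subset_closure ⟨j, hj, Or.inl h1⟩
  have h3 : z = g * (g⁻¹ * z * g) * g⁻¹ := by group
  rw [h3]
  exact mul_mem (mul_mem hg h2) (inv_mem hg)

/-- **A type preserving normalised automorphism is trivial.** -/
theorem eq_one_of_nrm [Finite W] {R : RGD cs h 2 T n X} (hX : Nodes.RGDLib.G1 cs h X = ⊤) (h2 : Two X)
    {β : MulAut Y} (hN : Nrm R β 1) : β = 1 := by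
  let F : Subgroup Y :=
    { carrier := {g | β g = g}
      one_mem' := map_one β
      mul_mem' := fun {a b} ha hb => by
        show β (a * b) = a * b
        rw [map_mul, show β a = a from ha, show β b = b from hb]
      inv_mem' := fun {a} ha => by
        show β a⁻¹ = a⁻¹
        rw [map_inv, show β a = a from ha] }
  have h3 : CK X Set.univ ≤ F := by
    refine (Subgroup.closure_le _).2 ?_
    rintro s ⟨i, -, hs | hs⟩
    · by_cases h1 : s = 1
      · rw [h1]; exact one_mem F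
      · refine h2.pos i _ ((hN.diag.pos i s).2 hs) _ hs ?_ h1
        rwa [Ne, EmbeddingLike.map_eq_one_iff]
    · by_cases h1 : s = 1
      · rw [h1]; exact one_mem F
      · refine h2.neg i _ ((hN.diag.neg i s).2 hs) _ hs ?_ h1
        rwa [Ne, EmbeddingLike.map_eq_one_iff]
  have h4 : (⊤ : Subgroup Y) ≤ F := by
    rw [← hX]
    refine le_trans ?_ ((MJ_le_CK R Set.univ).trans h3)
    refine RGD.Sup_mono fun x hx => ⟨hx, fun k hk => absurd (Set.mem_univ k) hk⟩
  ext x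
  exact h4 (Subgroup.mem_top x)

theorem rad_single (i : I) : rad cs h X {i} i = X (sr i) := by
  refine le_antisymm ((rad_le_UJ _ _).trans (UJ_singleton i).le) ?_
  refine RGD.le_Sup ⟨sr_mem_PosJ rfl, ?_⟩
  rw [sr_self]
  exact one_pos

theorem sum_two {G : Type*} [Group G] {B : Subgroup G} [Fintype B] {s : G} (hs : s ∈ B) (h1 : s ≠ 1)
    (hB : ∀ u ∈ B, u ≠ 1 → u = s) (f : G → ℂ) : ∑ b : B, f b = f 1 + f s := by
  classical
  have h2 : (Finset.univ : Finset B) = {1, ⟨s, hs⟩} := by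
    ext ⟨u, hu⟩
    simp only [Finset.mem_univ, Finset.mem_insert, Finset.mem_singleton, true_iff]
    by_cases hu1 : u = 1
    · left; exact Subtype.ext hu1
    · right; exact Subtype.ext (hB u hu hu1)
  rw [h2, Finset.sum_pair (fun e => h1 (congrArg Subtype.val e).symm)]
  rfl

/-- the sign rule for positive root groups -/
theorem neg_pos [Finite Y] {K : Set I} {i : I} (hi : i ∈ K) (hr : rad cs h X K i = X (sr i)) (h2 : Two X)
    {θ : ↥(MJ cs h X K) → ℂ} (hθ : Cusp cs h X K θ) {s : Y} (hs : s ∈ X (sr i)) (h1 : s ≠ 1)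
    (hsK : s ∈ MJ cs h X K) (g : ↥(MJ cs h X K)) : θ (g * ⟨s, hsK⟩) = -θ g := by
  classical
  have : Fintype (rad cs h X K i) := Fintype.ofFinite _
  let B : Subgroup ↥(MJ cs h X K) := (rad cs h X K i).subgroupOf (MJ cs h X K)
  have : Fintype B := Fintype.ofFinite _
  have hv := hθ.van i hi
  have h3 : ∑ b : B, θ b = 0 := by
    rw [← hv]
    exact Fintype.sum_equiv (Subgroup.subgroupOfEquivOfLe (rad_le_MJ K i)).toEquiv _ _ fun v => rfl
  have h4 := Cfsg.Agent.H969.TT.TopAbs.sum_mul_eq_zero B hθ.irr h3 g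
  have hsB : (⟨s, hsK⟩ : ↥(MJ cs h X K)) ∈ B := by
    rw [Subgroup.mem_subgroupOf, hr]
    exact hs
  rw [sum_two hsB (fun e => h1 (congrArg Subtype.val e)) (fun u hu hu1 => by
    rw [Subgroup.mem_subgroupOf, hr] at hu
    exact Subtype.ext (h2.pos i _ hu _ hs (fun e => hu1 (Subtype.ext e)) h1)) (fun b => θ (g * b)), mul_one] at h4
  exact (neg_eq_of_add_eq_zero_right h4).symm

/-- the sign rule for negative root groups -/
theorem neg_neg' [Finite Y] (R : RGD cs h 2 T n X) {K : Set I} {i : I} (hi : i ∈ K)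
    (hr : rad cs h X K i = X (sr i)) (h2 : Two X)
    {θ : ↥(MJ cs h X K) → ℂ} (hθ : Cusp cs h X K θ) {s : Y} (hs : s ∈ X (-sr i)) (h1 : s ≠ 1)
    (hsK : s ∈ MJ cs h X K) (g : ↥(MJ cs h X K)) : θ (g * ⟨s, hsK⟩) = -θ g := by
  obtain ⟨t, -, hm, hm2⟩ := H687.FourK.exists_rp_MJ R i
  set m := t * n i with hmdef
  have hmK : m ∈ MJ cs h X K := by
    refine (RGD.Sup_mono fun x hx => ?_) hm
    exact ⟨hx.1, fun k hk => hx.2 k fun e => hk (by rw [Set.mem_singleton_iff.1 e]; exact hi)⟩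
  have hs2 : m * s * m⁻¹ ∈ X (sr i) := by
    have := R.conj_mem hm2 (isRoot_sr cs h i).neg hs
    rwa [map_neg, rep_simple_sr, neg_neg] at this
  have hne : m * s * m⁻¹ ≠ 1 := by
    intro e
    apply h1
    have : s = m⁻¹ * (m * s * m⁻¹) * m := by group
    rw [this, e]; group
  have hcl := Core.isIrr_isClassFunction hθ.irr
  let m' : ↥(MJ cs h X K) := ⟨m, hmK⟩
  have e1 := neg_pos hi hr h2 hθ hs2 hne (mul_mem (mul_mem hmK hsK) (inv_mem hmK)) (m' * g * m'⁻¹)
  have e2 : m' * g * m'⁻¹ * ⟨m * s * m⁻¹, mul_mem (mul_mem hmK hsK) (inv_mem hmK)⟩ =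
      m' * (g * ⟨s, hsK⟩) * m'⁻¹ := by
    apply Subtype.ext
    show m * (g : Y) * m⁻¹ * (m * s * m⁻¹) = m * ((g : Y) * s) * m⁻¹
    group
  rw [e2, hcl, hcl] at e1
  exact e1

/-- **Invariance of a cuspidal character, root groups of order two, orthogonal nodes.** -/
theorem cusp_fix [Finite W] [Finite Y] {R : RGD cs h 2 T n X} (h2 : Two X) {K : Set I}
    (hr : ∀ i ∈ K, rad cs h X K i = X (sr i)) {β : MulAut Y} {σ : Equiv.Perm I} (hN : Nrm R β σ)
    (hK : σ '' K = K) (hH : Fix β (MJ cs h X K)) {θ : ↥(MJ cs h X K) → ℂ} (hθ : Cusp cs h X K θ)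
    (x : ↥(MJ cs h X K)) : θ (rAut β hH x) = θ x := by
  have hσ : ∀ i ∈ K, σ i ∈ K := fun i hi => by
    rw [← hK]
    exact ⟨i, hi, rfl⟩
  have hneg : ∀ i ∈ K, ∀ s, (s ∈ X (sr i) ∨ s ∈ X (-sr i)) → s ≠ 1 → ∀ (hsK : s ∈ MJ cs h X K)
      (g : ↥(MJ cs h X K)), θ (g * ⟨s, hsK⟩) = -θ g := by
    rintro i hi s (hs | hs) h1 hsK g
    · exact neg_pos hi (hr i hi) h2 hθ hs h1 hsK g
    · exact neg_neg' R hi (hr i hi) h2 hθ hs h1 hsK g
  have hmem : ∀ i ∈ K, ∀ s, (s ∈ X (sr i) ∨ s ∈ X (-sr i)) → s ∈ MJ cs h X K := by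
    rintro i hi s (hs | hs)
    · exact RGD.le_Sup (S := RootsJ cs h K) (PosJ_subset _ (sr_mem_PosJ hi)) hs
    · exact RGD.le_Sup (S := RootsJ cs h K) (RootsJ.neg (PosJ_subset _ (sr_mem_PosJ hi))) hs
  have key : ∀ i ∈ K, ∀ s, (s ∈ X (sr i) ∨ s ∈ X (-sr i)) → ∀ (hsK : s ∈ MJ cs h X K)
      (g : ↥(MJ cs h X K)), θ (rAut β hH g) = θ g → θ (rAut β hH (g * ⟨s, hsK⟩)) = θ (g * ⟨s, hsK⟩) := by
    intro i hi s hs hsK g hg
    by_cases h1 : s = 1
    · have e : g * ⟨s, hsK⟩ = g := by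
        apply Subtype.ext
        show (g : Y) * s = g
        rw [h1, mul_one]
      rw [e, hg]
    · have hs' : β s ∈ X (sr (σ i)) ∨ β s ∈ X (-sr (σ i)) :=
        hs.imp (fun h => (hN.diag.pos i s).2 h) (fun h => (hN.diag.neg i s).2 h)
      have h1' : β s ≠ 1 := by rwa [Ne, EmbeddingLike.map_eq_one_iff]
      have e1 := hneg _ (hσ i hi) _ hs' h1' ((hH s).2 hsK) (rAut β hH g)
      have e2 : rAut β hH (g * ⟨s, hsK⟩) = rAut β hH g * ⟨β s, (hH s).2 hsK⟩ := by
        rw [map_mul]; rfl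
      rw [e2, e1, hneg i hi s hs h1 hsK g, hg]
  have main : ∀ y ∈ CK X K, ∀ hy : y ∈ MJ cs h X K, θ (rAut β hH ⟨y, hy⟩) = θ ⟨y, hy⟩ := by
    have hle : CK X K ≤ MJ cs h X K := by
      refine (Subgroup.closure_le _).2 ?_
      rintro s ⟨i, hi, hs⟩
      exact hmem i hi s hs
    intro y hy
    refine Subgroup.closure_induction_right (p := fun y _ => ∀ hy : y ∈ MJ cs h X K,
      θ (rAut β hH ⟨y, hy⟩) = θ ⟨y, hy⟩) ?_ ?_ ?_ hy
    · intro h1
      have e : (⟨1, h1⟩ : ↥(MJ cs h X K)) = 1 := rfl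
      rw [e, map_one]
    · rintro x hx s ⟨i, hi, hs⟩ ih hxs
      exact key i hi s hs (hmem i hi s hs) ⟨x, hle hx⟩ (ih _)
    · rintro x hx s ⟨i, hi, hs⟩ ih hxs
      have hs' : s⁻¹ ∈ X (sr i) ∨ s⁻¹ ∈ X (-sr i) := hs.imp (fun h => inv_mem h) (fun h => inv_mem h)
      exact key i hi s⁻¹ hs' (hmem i hi _ hs') ⟨x, hle hx⟩ (ih _)
  exact main x (MJ_le_CK R K x.2) x.2

/-- **An invariant cuspidal character for two orthogonal nodes.** -/
theorem exists_os_orth [Finite W] [Finite Y] {R : RGD cs h 2 T n X} (hG : GG cs h T X = ⊤) (h2 : Two X)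
    {a c b d : I} (hac : M a c = 2) (hab : M a b = 3) (hcd : M c d = 3) {β : MulAut Y} {σ : Equiv.Perm I}
    (hN : Nrm R β σ) (hK : σ '' ({a, c} : Set I) = {a, c}) :
    ∃ θ : ↥(MJ cs h X {a, c}) → ℂ, OS (rAut β (hN.fixMJ hG hK)) θ ∧ Cusp cs h X {a, c} θ := by
  obtain ⟨θ, h3, h4, h5⟩ := oc_orth R (oc_node R a b hab) (oc_node R c d hcd) hac
  refine ⟨θ, ⟨⟨h3.irr, h4⟩, h5, fun x => ?_⟩, h3⟩
  refine cusp_fix h2 ?_ hN hK _ h3 x
  have n3 : a ≠ c := ne_of_M (M := M) (by rw [hac]; decide)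
  have hz := cartan_zero n3 hac h
  have ho : Orth A {a} {c} := by
    rintro i rfl j rfl
    exact ⟨n3, hz⟩
  rintro i (rfl | hi)
  · exact (ho.rad_eq (cs := cs) (h := h) (X := X) (i := i) rfl).trans (rad_single i)
  · rw [Set.mem_singleton_iff] at hi
    subst hi
    have h6 := ho.symm.rad_eq (cs := cs) (h := h) (X := X) (i := i) rfl
    rw [Set.union_comm] at h6
    exact h6.trans (rad_single i)

end rgd

/-! ### the symmetries of the path -/

/-- the adjacency of a path -/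
def Adj {n : ℕ} (a b : Fin n) : Prop := (a : ℕ) + 1 = b ∨ (b : ℕ) + 1 = a

theorem adj_A {n : ℕ} {a b : Fin n} : cA n a b = 3 ↔ Adj a b := by
  rw [LieRecognition.BNCox.cA_apply]
  unfold LieRecognition.CoxClass.mA Adj
  split_ifs <;> omega

theorem path_one {n : ℕ} {σ : Equiv.Perm (Fin n)} (hσ : ∀ a b : Fin n, Adj a b → Adj (σ a) (σ b))
    (h0 : ∀ i : Fin n, (i : ℕ) = 0 → (σ i : ℕ) = 0) : σ = 1 := by
  have key : ∀ k (hk : k < n), (σ ⟨k, hk⟩ : ℕ) = k := by
    intro k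
    induction k using Nat.strong_induction_on with
    | _ k ih =>
      intro hk
      match k, ih, hk with
      | 0, _, hk => exact h0 _ rfl
      | 1, ih, hk =>
        have h1 := ih 0 (by omega) (by omega)
        have h2 := hσ ⟨0, by omega⟩ ⟨1, hk⟩ (Or.inl rfl)
        unfold Adj at h2
        rw [h1] at h2
        omega
      | k + 2, ih, hk =>
        have h1 := ih (k + 1) (by omega) (by omega)
        have h3 := ih k (by omega) (by omega)
        have h2 := hσ ⟨k + 1, by omega⟩ ⟨k + 2, hk⟩ (Or.inl rfl)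
        unfold Adj at h2
        rw [h1] at h2
        rcases h2 with h2 | h2
        · omega
        · exfalso
          have h4 : (σ ⟨k + 2, hk⟩ : ℕ) = σ ⟨k, by omega⟩ := by omega
          have h5 := congrArg Fin.val (σ.injective (Fin.ext h4))
          simp at h5
  ext i
  exact key i i.2

/-- **The symmetries of type `A_n`.** -/
theorem perm_A {n : ℕ} (hn : 3 ≤ n) {σ : Equiv.Perm (Fin n)} (hσ : ∀ i j, cA n (σ i) (σ j) = cA n i j) :
    σ = 1 ∨ σ = Fin.revPerm := by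
  have hadj : ∀ a b : Fin n, Adj a b → Adj (σ a) (σ b) := by
    intro a b hab
    rw [← adj_A, hσ, adj_A]
    exact hab
  have hend : ∀ i : Fin n, (i : ℕ) = 0 → (σ i : ℕ) = 0 ∨ (σ i : ℕ) = n - 1 := by
    intro i hi
    by_contra hcon
    have h1 : σ i ∈ {i : Fin n | ¬ ((i : ℕ) = 0 ∨ (i : ℕ) = n - 1)} := hcon
    rw [← H612.Sym.sym_A σ hσ] at h1
    obtain ⟨j, hj, hji⟩ := h1
    rw [σ.injective hji] at hj
    exact hj (Or.inl hi)
  rcases hend ⟨0, by omega⟩ rfl with h1 | h1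
  · left
    refine path_one hadj fun i hi => ?_
    have : i = ⟨0, by omega⟩ := Fin.ext hi
    rw [this]
    exact h1
  · right
    have h2 : Fin.revPerm * σ = 1 := by
      refine path_one (fun a b hab => ?_) fun i hi => ?_
      · have h3 := hadj a b hab
        have h4 := (σ a).2
        have h5 := (σ b).2
        change Adj (Fin.rev (σ a)) (Fin.rev (σ b))
        unfold Adj at h3 ⊢
        rw [Fin.val_rev, Fin.val_rev]
        omega
      · have : i = ⟨0, by omega⟩ := Fin.ext hi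
        rw [this]
        change (Fin.rev (σ ⟨0, _⟩) : ℕ) = 0
        rw [Fin.val_rev]
        omega
    ext i
    have h3 := congrArg (fun f : Equiv.Perm (Fin n) => f i) h2
    change Fin.rev (σ i) = i at h3
    have h4 := congrArg Fin.rev h3
    rw [Fin.rev_rev] at h4
    rw [h4]
    rfl

theorem rev_pow {n : ℕ} (hn : 3 ≤ n) (k : ℕ) :
    ((Fin.revPerm : Equiv.Perm (Fin n)) ^ k) ⟨0, by omega⟩ ≠ ⟨1, by omega⟩ := by
  have h1 : (Fin.revPerm : Equiv.Perm (Fin n)) ^ 2 = 1 := by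
    ext i
    rw [pow_two, Equiv.Perm.mul_apply]
    simp
  rcases Nat.even_or_odd' k with ⟨m, rfl | rfl⟩
  · rw [pow_mul, h1, one_pow]
    simp
  · rw [pow_add, pow_mul, h1, one_pow, one_mul, pow_one]
    intro h
    have h2 := congrArg Fin.val h
    change (Fin.rev (⟨0, _⟩ : Fin n) : ℕ) = 1 at h2
    rw [Fin.val_rev] at h2
    simp at h2
    omega

section assoc

variable {I W : Type*} [Fintype I] [DecidableEq I] [Group W] {M : CoxeterMatrix I}
  {cs : CoxeterSystem M W} {A : I → I → ℤ} {h : IsCartan M A}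

/-- an orthogonal pair is not associated to a connected pair (or to a single node) -/
theorem not_assoc_orth [Finite W] {a c d e : I} (hac : a ≠ c) (h0 : A a c = 0)
    (hde : d ≠ e → A d e ≠ 0 ∧ A e d ≠ 0) : ¬ Assoc cs h ({a, c} : Set I) {d, e} := by
  rintro ⟨w, hw⟩
  obtain ⟨k, hk, e1⟩ := hw a (Or.inl rfl)
  obtain ⟨l, hl, e2⟩ := hw c (Or.inr rfl)
  have h4 := cartan_rep e1 e2
  have hkl : k ≠ l := by
    rintro rfl
    have h5 : (sr a : I → ℤ) = sr c := by
      have := congrArg (rep cs h w⁻¹) (e1.trans e2.symm)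
      rwa [rep_inv_apply, rep_inv_apply] at this
    exact hac (sr_injective h5)
  rcases hk with rfl | hk <;> rcases hl with rfl | hl
  · exact hkl rfl
  · rw [Set.mem_singleton_iff] at hl
    subst hl
    exact (hde hkl).1 (h4.trans h0)
  · rw [Set.mem_singleton_iff] at hk
    subst hk
    exact (hde hkl.symm).2 (h4.trans h0)
  · rw [Set.mem_singleton_iff] at hk hl
    exact hkl (hk.trans hl.symm)

end assoc

theorem mA_three {l : ℕ} (i j : Fin l) (hij : (i : ℕ) + 1 = j) : cA l i j = 3 := adj_A.2 (Or.inl hij)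

theorem mA_two {l : ℕ} (i j : Fin l) (hij : (i : ℕ) + 2 ≤ j) : cA l i j = 2 := by
  rw [cA_apply]
  unfold LieRecognition.CoxClass.mA
  split_ifs <;> omega

/-- **Root groups of order two, type `A_l`, `l ≥ 3`: the automorphisms reversing the diagram.** -/
theorem gInv3_rev {l : ℕ} (hl : 3 ≤ l) {S : Type u} [Group S] [Finite S] [Finite (cA l).Group]
    {A : Fin l → Fin l → ℤ} {h : IsCartan (cA l) A} {T : Subgroup S} {n : Fin l → S}
    {X : (Fin l → ℤ) → Subgroup S} (R : RGD (cA l).toCoxeterSystem h 2 T n X)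
    (hG : GG (cA l).toCoxeterSystem h T X = ⊤) (h2 : Two X) (hT : H601.OddDeg.TwoC S) {β : MulAut S}
    (hN : Nrm R β Fin.revPerm) : GInv3 β := by
  let a : Fin l := ⟨0, by omega⟩
  let b : Fin l := ⟨1, by omega⟩
  let c : Fin l := ⟨l - 1, by omega⟩
  let d : Fin l := ⟨l - 2, by omega⟩
  let m : Fin l := ⟨(l - 1) / 2, by omega⟩
  have hac : cA l a c = 2 := mA_two a c (by simp only [a, c]; omega)
  have hab : cA l a b = 3 := mA_three a b rfl
  have hcd : cA l c d = 3 := by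
    rw [CoxeterMatrix.symmetric]
    exact mA_three d c (by simp only [c, d]; omega)
  have hra : Fin.rev a = c := Fin.ext (by rw [Fin.val_rev])
  have hK : (Fin.revPerm : Equiv.Perm (Fin l)) '' ({a, c} : Set (Fin l)) = {a, c} := by
    rw [Set.image_pair]
    show ({Fin.rev a, Fin.rev c} : Set (Fin l)) = {a, c}
    rw [hra, ← hra, Fin.rev_rev, hra, Set.pair_comm]
  have hK' : (Fin.revPerm : Equiv.Perm (Fin l)) '' ({m, Fin.rev m} : Set (Fin l)) = {m, Fin.rev m} := by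
    rw [Set.image_pair]
    show ({Fin.rev m, Fin.rev (Fin.rev m)} : Set (Fin l)) = {m, Fin.rev m}
    rw [Fin.rev_rev, Set.pair_comm]
  obtain ⟨θ, hθ, hθc⟩ := exists_os_orth hG h2 hac hab hcd hN hK
  refine gInv3_of_types R hG hT hN hK hK' ⟨m, Or.inl rfl⟩ ⟨θ, hθc, hθ⟩ ?_
  refine not_assoc_orth (a := a) (c := c) (d := m) (e := Fin.rev m) ?_ ?_ ?_
  · intro h5
    have := congrArg Fin.val h5
    simp only [a, c] at this
    omega
  · exact (cartan_zero (ne_of_M (M := cA l) (by rw [hac]; decide)) hac h).1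
  · intro h5
    have h6 : cA l m (Fin.rev m) = 3 := by
      refine mA_three _ _ ?_
      rw [Fin.val_rev]
      have h7 : (m : ℕ) ≠ (Fin.rev m : Fin l) := fun e => h5 (Fin.ext e)
      rw [Fin.val_rev] at h7
      simp only [m] at h7 ⊢
      omega
    have h7 := cartan_three h5 h6 h
    rw [h7.1, h7.2]
    decide

/-! ### the standard datum -/

section std

variable {F : Type} [Field F] [Finite F] [CharP F 2]

theorem two_std (hF : Nat.card F = 2) {l : ℕ} :
    Two (fun x : Fin l → ℤ => (Nodes.RGDTypeA.X F x).map (Nodes.RGDTypeA.pr l F)) := by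
  have key : ∀ a b : Fin (l + 1), ∀ u ∈ (Nodes.RGDTypeA.XX F a b).map (Nodes.RGDTypeA.pr l F),
      ∀ v ∈ (Nodes.RGDTypeA.XX F a b).map (Nodes.RGDTypeA.pr l F), u ≠ 1 → v ≠ 1 → u = v := by
    rintro a b _ ⟨_, ⟨s, rfl⟩, rfl⟩ _ ⟨_, ⟨t, rfl⟩, rfl⟩ hu hv
    have hs : s ≠ 0 := by
      rintro rfl
      rw [TitsThree.KSideA.tv_zero, map_one] at hu
      exact hu rfl
    have ht : t ≠ 0 := by
      rintro rfl
      rw [TitsThree.KSideA.tv_zero, map_one] at hv
      exact hv rfl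
    have hst : s = t := by
      have : Fintype F := Fintype.ofFinite F
      classical
      by_contra hne
      have h3 : ({0, s, t} : Finset F).card = 3 := by
        rw [Finset.card_insert_of_notMem (by simp [hs.symm, ht.symm]), Finset.card_pair hne]
      have h4 := Finset.card_le_univ ({0, s, t} : Finset F)
      rw [h3, ← Nat.card_eq_fintype_card, hF] at h4
      omega
    rw [hst]
  refine ⟨fun i u hu v hv => ?_, fun i u hu v hv => ?_⟩
  · rw [Nodes.RGDTypeA.X_sr] at hu hv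
    exact key _ _ u hu v hv
  · rw [Nodes.RGDTypeA.X_neg_sr] at hu hv
    exact key _ _ u hu v hv

theorem twoC_psl {l : ℕ} (hl : 2 ≤ l) :
    H601.OddDeg.TwoC (Matrix.ProjectiveSpecialLinearGroup (Fin (l + 1)) F) := by
  have : Fintype F := Fintype.ofFinite F
  have : IsSimpleGroup (Matrix.ProjectiveSpecialLinearGroup (Fin (l + 1)) F) := Cfsg.Agent.S0249.result (l + 1) (by omega)
  exact H742.TwoC.twoC_charTwo (Or.inl ⟨F, inferInstance, inferInstance, inferInstance, l + 1, by omega,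
    fun h => absurd h (by omega), ⟨MulEquiv.refl _⟩⟩)

/-- **QE9**: `PSL_(l+1)(2)`, `l ≥ 3`, the automorphisms reversing the diagram. -/
theorem psl_swap_two (hF : Nat.card F = 2) {l : ℕ} (hl : 3 ≤ l)
    {β : MulAut (Matrix.ProjectiveSpecialLinearGroup (Fin (l + 1)) F)} {σ : Equiv.Perm (Fin l)}
    (hN : Nrm (H42.K547.Even.rA l F) β σ) (hσ : σ ≠ 1) : GInv3 β := by
  have := H42.K547.Even.finite_A l
  have hrev : σ = Fin.revPerm := (perm_A hl (fun i j => hN.sym i j)).resolve_left hσ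
  subst hrev
  exact gInv3_rev hl _ (H42.K547.Even.gA l F) (two_std hF) (twoC_psl (by omega)) hN

/-- **`PSL_(l+1)(2)`, `l ≥ 3`: all outer automorphisms.** -/
theorem gInv3_two (hF : Nat.card F = 2) {l : ℕ} (hl : 3 ≤ l)
    {τ : MulAut (Matrix.ProjectiveSpecialLinearGroup (Fin (l + 1)) F)} (hτ : TwoPow τ) (hτ' : ¬ IsInn τ) :
    GInv3 τ := by
  have := H42.K547.Even.finite_A l
  obtain ⟨g, σ, hN⟩ := exists_nrm (H42.K547.Even.rA l F) (H42.K547.Even.gA l F) hτ
  refine gInv3_conj g (psl_swap_two hF hl hN ?_)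
  rintro rfl
  apply hτ'
  have h3 := eq_one_of_nrm (Nodes.RGDTypeA.G1_psl_eq_top _ _) (two_std hF) hN
  refine ⟨g⁻¹, fun x => ?_⟩
  have h4 := congrArg (fun α : MulAut (Matrix.ProjectiveSpecialLinearGroup (Fin (l + 1)) F) => α x) h3
  change g * τ x * g⁻¹ = x at h4
  calc τ x = g⁻¹ * (g * τ x * g⁻¹) * g := by group
    _ = g⁻¹ * x * g⁻¹⁻¹ := by rw [h4, inv_inv]

theorem psl42 (hF : Nat.card F = 2) : H42.K547.Even.GE (Matrix.ProjectiveSpecialLinearGroup (Fin 4) F) :=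
  fun _ hτ hτ' => Or.inl (gInv3_two (l := 3) hF le_rfl hτ hτ')

end std

end Cfsg.Agent.H839.K547
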